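import Cfsg.Agent.H70.AutPSU.Rep
import Cfsg.Agent.H62.GraphPSL.Main

/-!
Classes and centralisers of involutory graph automorphisms of `PSU n`, transferred to the matrix
side over the subfield.
-/

set_option autoImplicit false

namespace Cfsg.Agent.H70.AutPSU

open Matrix Cfsg.Agent.H3 Cfsg.Agent.H23.Descent Cfsg.Agent.H23.AutPSU
open Cfsg.Agent.H62.GraphPSL (formSim ofForm)

variable {F : Type*} [Field F] [Fintype F] {F₀ : Type*} [Field F₀] {q n : ℕ}

local notation "M₁" => Matrix (Fin n) (Fin n) F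
local notation "M₀" => Matrix (Fin n) (Fin n) F₀

variable {P : Pair F F₀ q} {γ γ' : MulAut (Cfsg.PSU n F q)} {ε ε' : F₀} {θ θ' : F}
  {k k' : GL (Fin n) F} {H H' : Matrix (Fin n) (Fin n) F₀}

theorem IsForm.ne_zero (hn : 1 ≤ n) (h : IsForm P ε θ H) : H ≠ 0 := fun h0 => h.det_ne (by
  haveI : Nonempty (Fin n) := ⟨⟨0, hn⟩⟩
  rw [h0, Matrix.det_zero])

theorem sig_div_fixed {a b : F} {e : F} (ha : P.sig a = e * a) (hb : P.sig b = e * b) (he : e ≠ 0) :
    P.sig (a / b) = a / b := by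
  rw [map_div₀, ha, hb, mul_div_mul_left _ _ he]

theorem IsForm.theta_div (h : IsForm P ε θ H) (h' : IsForm P ε θ' H') : P.sig (θ' / θ) = θ' / θ :=
  sig_div_fixed h'.theta h.theta ((map_ne_zero _).2 (by rcases h.eps with e | e <;> simp [e]))

theorem Rep.conj (h : Rep P γ ε θ k H) (a : Cfsg.GU n F q) :
    Rep P (semiAut a 1 * γ * (semiAut a 1)⁻¹) ε θ (a.1 * k) H := by
  obtain ⟨hf, hk, u, g, hu, hg, rfl⟩ := h
  refine ⟨hf, ?_, u, a * g * guMap P.sig a⁻¹, hu, ?_, ?_⟩
  · rw [Units.val_mul, Matrix.transpose_mul, Matrix.map_mul,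
      show (k : M₁)ᵀ * (a.1 : M₁)ᵀ * ((a.1 : M₁).map P.sig * (k : M₁).map P.sig) =
        (k : M₁)ᵀ * ((a.1 : M₁)ᵀ * (a.1 : M₁).map P.sig) * (k : M₁).map P.sig by simp only [mul_assoc],
      P.mem_GU.1 a.2, mul_one, hk]
  · rw [Subgroup.coe_mul, Subgroup.coe_mul, coe_guMap, hg, Subgroup.coe_inv, map_inv, map_mul,
      _root_.mul_inv_rev, ← mul_assoc (a.1), ← scal_comm]
    simp only [mul_assoc]
  · rw [mul_inv_eq_iff_eq_mul, semiAut_mul, semiAut_mul, guMap_one, one_mul, mul_one, mul_assoc,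
      ← map_mul, inv_mul_cancel, map_one, mul_one]

/-- The same frame gives the same automorphism. -/
theorem Rep.unique_aut (hn : 3 ≤ n) (h : Rep P γ ε θ k H) (h' : Rep P γ' ε θ' k H') : γ = γ' := by
  obtain ⟨hf, -, u, g, hu, hg, rfl⟩ := h
  obtain ⟨-, -, u', g', hu', hg', rfl⟩ := h'
  refine (semiAut_eq_iff P hn).2 ⟨u' * u⁻¹, ?_, ?_⟩
  · have h0 : P.ι ε ≠ 0 := (map_ne_zero _).2 (by rcases hf.eps with e | e <;> simp [e])
    rw [Units.val_mul, map_mul, Units.val_inv_eq_inv_val, map_inv₀, mul_mul_mul_comm, hu', ← mul_inv, hu,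
      mul_inv_cancel₀ h0]
  · rw [hg, hg', ← mul_assoc (scal (u' * u⁻¹)), ← scal_mul, inv_mul_cancel_right]

theorem gram_scale (w : Fˣ) (A : GL (Fin n) F₀) (hk : (k : M₁)ᵀ * (k : M₁).map P.sig = θ • H.map P.ι) :
    ((scal w * k * P.ιG A : GL (Fin n) F) : M₁)ᵀ * ((scal w * k * P.ιG A : GL (Fin n) F) : M₁).map P.sig =
      ((w : F) * P.sig w * θ) • ((A : M₀)ᵀ * H * (A : M₀)).map P.ι := by
  have hA : (P.ιG A : M₁).map P.sig = (P.ιG A : M₁) := congrArg Units.val (P.glMap_ιG A)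
  rw [Units.val_mul, Units.val_mul, coe_scal, smul_mul_assoc, one_mul, smul_mul_assoc, Matrix.transpose_smul,
    map_smul_sig, Matrix.transpose_mul, Matrix.map_mul, hA, smul_mul_assoc, mul_smul_comm, smul_smul,
    show (P.ιG A : M₁)ᵀ * (k : M₁)ᵀ * ((k : M₁).map P.sig * (P.ιG A : M₁)) =
      (P.ιG A : M₁)ᵀ * ((k : M₁)ᵀ * (k : M₁).map P.sig) * (P.ιG A : M₁) by simp only [mul_assoc],
    hk, mul_smul_comm, smul_mul_assoc, smul_smul, P.ιG_coe, Matrix.map_mul, Matrix.map_mul, Matrix.transpose_map]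

/-- Change of frame over the subfield and by scalars. -/
theorem Rep.change (h : Rep P γ ε θ k H) (w : Fˣ) (A : GL (Fin n) F₀) (hf' : IsForm P ε θ' H')
    (e : θ' • H'.map P.ι = ((w : F) * P.sig w * θ) • ((A : M₀)ᵀ * H * (A : M₀)).map P.ι) :
    Rep P γ ε θ' (scal w * k * P.ιG A) H' := by
  obtain ⟨hf, hk, u, g, hu, hg, rfl⟩ := h
  refine ⟨hf', by rw [gram_scale w A hk, e], u * w⁻¹ * Units.map (P.sig.toRingHom : F →* F) w, g, ?_, ?_, rfl⟩
  · rw [← hu]
    simp only [Units.val_mul, Units.val_inv_eq_inv_val, map_mul, map_inv₀]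
    show (u : F) * (w : F)⁻¹ * P.sig w * (P.sig u * (P.sig w)⁻¹ * P.sig (P.sig w)) = _
    rw [P.sig_sig]
    have := w.ne_zero
    have : P.sig (w : F) ≠ 0 := (map_ne_zero _).2 w.ne_zero
    field_simp
  · rw [map_mul, map_mul, P.glMap_ιG, glMap_scal, hg, scal_mul, scal_mul]
    set z := Units.map (P.sig.toRingHom : F →* F) w
    calc scal u * (k * (glMap P.sig k)⁻¹)
        = scal u * (scal w)⁻¹ * scal z * (scal w * (k * (glMap P.sig k)⁻¹) * (scal z)⁻¹) := by
          rw [mul_assoc (scal u * _) (scal z), mul_assoc (scal w) _ (scal z)⁻¹, ← mul_assoc (scal z) (scal w),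
            scal_comm z (scal w), mul_assoc (scal w) (scal z),
            show (scal z : GL (Fin n) F) * (k * (glMap P.sig k)⁻¹ * (scal z)⁻¹) = k * (glMap P.sig k)⁻¹ by
              rw [← mul_assoc, scal_comm, mul_inv_cancel_right]]
          group
      _ = _ := by
        rw [show (scal w : GL (Fin n) F)⁻¹ = scal w⁻¹ from (map_inv _ w).symm]
        congr 1
        group

/-- A representation is unique up to the change of frame. -/
theorem Rep.unique (hn : 3 ≤ n) (h : Rep P γ ε θ k H) (h' : Rep P γ ε' θ' k' H') :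
    ε = ε' ∧ ∃ (w : Fˣ) (A : GL (Fin n) F₀), k' = scal w * k * P.ιG A ∧
      θ' • H'.map P.ι = ((w : F) * P.sig w * θ) • ((A : M₀)ᵀ * H * (A : M₀)).map P.ι := by
  obtain ⟨hf, hk, u, g, hu, hg, rfl⟩ := h
  obtain ⟨hf', hk', u', g', hu', hg', he⟩ := h'
  obtain ⟨c, hc, hcg⟩ := (semiAut_eq_iff P hn).1 he
  set r : Fˣ := u'⁻¹ * (c * u) with hr
  set x : GL (Fin n) F := k * (glMap P.sig k)⁻¹ with hx
  set y : GL (Fin n) F := k' * (glMap P.sig k')⁻¹ with hy
  have hyx : y = scal r * x := by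
    rw [hr, scal_mul, scal_mul, mul_assoc, mul_assoc, ← hg, ← hcg, hg',
      ← mul_assoc, ← scal_mul, inv_mul_cancel, scal_one, one_mul]
  have hxx : x * glMap P.sig x = 1 := by rw [hx, map_mul, map_inv, P.glMap_glMap]; group
  have hyy : y * glMap P.sig y = 1 := by rw [hy, map_mul, map_inv, P.glMap_glMap]; group
  have hN : (r : F) * P.sig r = 1 := by
    rw [hyx, map_mul, glMap_scal, mul_assoc, ← mul_assoc x, ← scal_comm, mul_assoc, hxx, mul_one,
      ← scal_mul] at hyy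
    have h1 := congrArg (fun z : GL (Fin n) F => (z : M₁) ⟨0, by omega⟩ ⟨0, by omega⟩) hyy
    simpa [coe_scal] using h1
  have hεε : ε = ε' := by
    apply P.ι.injective
    rw [← hu, ← hu']
    rw [hr] at hN
    simp only [Units.val_mul, Units.val_inv_eq_inv_val, map_mul, map_inv₀] at hN
    have := u'.ne_zero
    have : P.sig (u' : F) ≠ 0 := (map_ne_zero _).2 u'.ne_zero
    field_simp at hN
    linear_combination hN - (u : F) * P.sig u * hc
  obtain ⟨w, hw⟩ := P.exists_quot hN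
  have hfix : glMap P.sig ((scal w * k)⁻¹ * k') = (scal w * k)⁻¹ * k' := by
    have hσk' : glMap P.sig k' = y⁻¹ * k' := by rw [hy]; group
    have hσk : glMap P.sig k = x⁻¹ * k := by rw [hx]; group
    have hσw : Units.map (P.sig.toRingHom : F →* F) w = r⁻¹ * w := Units.ext (by
      show P.sig w = ((r⁻¹ * w : Fˣ) : F)
      rw [Units.val_mul, Units.val_inv_eq_inv_val, eq_inv_mul_iff_mul_eq₀ r.ne_zero, hw])
    rw [map_mul, map_inv, map_mul, glMap_scal, hσw, hσk, hσk', hyx, scal_mul,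
      show (scal r⁻¹ : GL (Fin n) F) = (scal r)⁻¹ from map_inv _ r, scal_comm w k,
      show (scal r)⁻¹ * scal w * (x⁻¹ * k) = (scal r)⁻¹ * x⁻¹ * (k * scal w) by
        rw [mul_assoc (scal r)⁻¹, scal_comm w (x⁻¹ * k)]; group,
      show (scal r * x)⁻¹ = x⁻¹ * (scal r)⁻¹ from _root_.mul_inv_rev _ _,
      show (scal r : GL (Fin n) F)⁻¹ * x⁻¹ = x⁻¹ * (scal r)⁻¹ from
        (Commute.inv_inv (show Commute (scal r) x from scal_comm r x)).eq]
    group
  obtain ⟨A, hA⟩ := P.exists_ιG_of_fixed hfix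
  have hk'e : k' = scal w * k * P.ιG A := by rw [hA, mul_inv_cancel_left]
  refine ⟨hεε, w, A, hk'e, ?_⟩
  rw [← hk', hk'e, gram_scale w A hk]

variable [Fintype F₀]

/-- Conjugacy is congruence up to a scalar. -/
theorem conj_iff (hn : 3 ≤ n) (h : Rep P γ ε θ k H) (h' : Rep P γ' ε' θ' k' H') :
    Cfsg.IsConjUnder (Cfsg.inndiagPSU n F q) γ γ' ↔
      ∃ (A : GL (Fin n) F₀) (c : F₀ˣ), H' = (c : F₀) • ((A : M₀)ᵀ * H * (A : M₀)) := by
  constructor
  · rintro ⟨_, ha, rfl⟩
    obtain ⟨a, rfl⟩ := mem_inndiag_iff.1 ha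
    obtain ⟨rfl, w, A, -, e⟩ := (h.conj a).unique hn h'
    have hfix : P.sig ((w : F) * P.sig w * θ / θ') = (w : F) * P.sig w * θ / θ' := by
      refine sig_div_fixed (e := P.ι ε) ?_ h'.1.theta ((map_ne_zero _).2 (by
        rcases h.1.eps with e | e <;> simp [e]))
      rw [map_mul, map_mul, P.sig_sig, h.1.theta]; ring
    obtain ⟨c, hc⟩ := P.exists_ι_of_fixed hfix
    have hc0 : c ≠ 0 := fun h0 => by
      rw [h0, map_zero] at hc
      rcases div_eq_zero_iff.1 hc.symm with h1 | h1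
      · exact mul_ne_zero (mul_ne_zero w.ne_zero ((map_ne_zero _).2 w.ne_zero)) h.1.theta_ne h1
      · exact h'.1.theta_ne h1
    refine ⟨A, Units.mk0 c hc0, Matrix.ext fun i j => P.ι.injective ?_⟩
    have e' := congrFun (congrFun e i) j
    simp only [Matrix.smul_apply, Matrix.map_apply, smul_eq_mul] at e'
    rw [Matrix.smul_apply, smul_eq_mul, map_mul, Units.val_mk0, hc, div_mul_eq_mul_div, ← e',
      mul_div_cancel_left₀ _ h'.1.theta_ne]
  · rintro ⟨A, c, e⟩
    have hεε : ε = ε' := by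
      obtain ⟨i, j, hij⟩ : ∃ i j, H' i j ≠ 0 := by
        by_contra hne
        push Not at hne
        exact h'.1.ne_zero (by omega) (Matrix.ext hne)
      have h1 : H'ᵀ = ε • H' := by
        rw [e, Matrix.transpose_smul, Matrix.transpose_mul, Matrix.transpose_mul, Matrix.transpose_transpose,
          h.1.transp, Matrix.smul_mul, Matrix.mul_smul, smul_comm, mul_assoc]
      have := congrFun (congrFun (h1.symm.trans h'.1.transp) i) j
      exact mul_right_cancel₀ hij this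
    subst hεε
    obtain ⟨d, hd⟩ := P.exists_ι_of_fixed (h.1.theta_div h'.1)
    have hd0 : d ≠ 0 := fun h0 => by
      rw [h0, map_zero] at hd
      exact div_ne_zero h'.1.theta_ne h.1.theta_ne hd.symm
    obtain ⟨w, hw⟩ := P.exists_norm (d * c) (mul_ne_zero hd0 c.ne_zero)
    have hR := h.change (θ' := θ') (H' := H') w A h'.1 (by
      rw [e, hw]
      refine Matrix.ext fun i j => ?_
      simp only [Matrix.smul_apply, Matrix.map_apply, smul_eq_mul, map_mul, hd]
      field_simp [h.1.theta_ne])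
    set k₁ := scal w * k * P.ιG A
    have hGU : k' * k₁⁻¹ ∈ Cfsg.GU n F q := by
      rw [P.mem_GU]
      have hkk : (k₁ : M₁) * ((k₁⁻¹ : GL (Fin n) F) : M₁) = 1 := by
        rw [← Units.val_mul, mul_inv_cancel, Units.val_one]
      rw [Units.val_mul, Matrix.transpose_mul, Matrix.map_mul,
        show ((k₁⁻¹ : GL (Fin n) F) : M₁)ᵀ * (k' : M₁)ᵀ * ((k' : M₁).map P.sig * ((k₁⁻¹ : GL (Fin n) F) : M₁).map P.sig) =
          ((k₁⁻¹ : GL (Fin n) F) : M₁)ᵀ * ((k' : M₁)ᵀ * (k' : M₁).map P.sig) * ((k₁⁻¹ : GL (Fin n) F) : M₁).map P.sig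
          by simp only [mul_assoc], h'.2.1, ← hR.2.1, ← mul_assoc, ← Matrix.transpose_mul, hkk,
        Matrix.transpose_one, one_mul, ← Matrix.map_mul, hkk, Matrix.map_one _ (map_zero _) (map_one _)]
    have h2 := hR.conj ⟨_, hGU⟩
    rw [inv_mul_cancel_right] at h2
    exact ⟨_, mem_inndiag_iff.2 ⟨_, rfl⟩, (h2.unique_aut hn h').symm⟩

/-- The pairs of a scalar and a similarity describing the centraliser. -/
def stabPair (P : Pair F F₀ q) (H : M₀) : Subgroup (Fˣ × GL (Fin n) F₀) where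
  carrier := {p | ((p.1 : F) * P.sig p.1) • ((p.2 : M₀)ᵀ * H * (p.2 : M₀)).map P.ι = H.map P.ι}
  one_mem' := by simp
  mul_mem' {a b} ha hb := by
    simp only [Set.mem_ofPred_eq, Prod.fst_mul, Prod.snd_mul, Units.val_mul, map_mul, Matrix.transpose_mul,
      Matrix.map_mul, Matrix.transpose_map] at ha hb ⊢
    rw [mul_mul_mul_comm, mul_comm, ← smul_smul]
    conv_rhs => rw [← hb, ← ha]
    simp only [mul_assoc, mul_smul_comm, smul_mul_assoc]
  inv_mem' {a} ha := by
    simp only [Set.mem_ofPred_eq, Prod.fst_inv, Prod.snd_inv, Matrix.map_mul, Matrix.transpose_map] at ha ⊢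
    set B : M₁ := ((a.2 : GL (Fin n) F₀) : M₀).map P.ι
    set B' : M₁ := ((a.2⁻¹ : GL (Fin n) F₀) : M₀).map P.ι
    have hBB : B * B' = 1 := by
      rw [← Matrix.map_mul, ← Units.val_mul, mul_inv_cancel, Units.val_one,
        Matrix.map_one _ (map_zero _) (map_one _)]
    conv_lhs => rw [← ha]
    rw [mul_smul_comm, smul_mul_assoc, smul_smul,
      show B'ᵀ * (Bᵀ * H.map P.ι * B) * B' = B'ᵀ * Bᵀ * H.map P.ι * (B * B') by simp only [mul_assoc],
      ← Matrix.transpose_mul, hBB, Matrix.transpose_one, one_mul, mul_one,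
      Units.val_inv_eq_inv_val, map_inv₀]
    have := a.1.ne_zero
    have : P.sig (a.1 : F) ≠ 0 := (map_ne_zero _).2 a.1.ne_zero
    rw [show (a.1 : F)⁻¹ * (P.sig (a.1 : F))⁻¹ * ((a.1 : F) * P.sig a.1) = 1 by field_simp, one_smul]

theorem stabPair_frame (h : Rep P γ ε θ k H) (p : stabPair P H) :
    k * (scal p.1.1 * P.ιG p.1.2) * k⁻¹ ∈ Cfsg.GU n F q := by
  rw [P.mem_GU]
  have hp : ((p.1.1 : F) * P.sig p.1.1) • ((p.1.2 : M₀)ᵀ * H * (p.1.2 : M₀)).map P.ι = H.map P.ι := p.2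
  have e := gram_scale p.1.1 p.1.2 h.2.1
  rw [mul_comm _ θ, ← smul_smul, hp, ← h.2.1] at e
  rw [show k * (scal p.1.1 * P.ιG p.1.2) * k⁻¹ = (scal p.1.1 * k * P.ιG p.1.2) * k⁻¹ by
    rw [scal_comm p.1.1 k]; simp only [mul_assoc]]
  set k₁ := scal p.1.1 * k * P.ιG p.1.2
  have hkk : (k : M₁) * ((k⁻¹ : GL (Fin n) F) : M₁) = 1 := by
    rw [← Units.val_mul, mul_inv_cancel, Units.val_one]
  rw [Units.val_mul, Matrix.transpose_mul, Matrix.map_mul,
    show ((k⁻¹ : GL (Fin n) F) : M₁)ᵀ * (k₁ : M₁)ᵀ * ((k₁ : M₁).map P.sig * ((k⁻¹ : GL (Fin n) F) : M₁).map P.sig) =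
      ((k⁻¹ : GL (Fin n) F) : M₁)ᵀ * ((k₁ : M₁)ᵀ * (k₁ : M₁).map P.sig) * ((k⁻¹ : GL (Fin n) F) : M₁).map P.sig
      by simp only [mul_assoc], e, ← mul_assoc, ← Matrix.transpose_mul, hkk, Matrix.transpose_one, one_mul,
    ← Matrix.map_mul, hkk, Matrix.map_one _ (map_zero _) (map_one _)]

/-- The centralising elements of `GU`. -/
noncomputable def stabHom (h : Rep P γ ε θ k H) : stabPair P H →* Cfsg.GU n F q :=
  MonoidHom.mk' (fun p => ⟨k * (scal p.1.1 * P.ιG p.1.2) * k⁻¹, stabPair_frame h p⟩) fun a b =>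
    Subtype.ext (by
      show k * (scal (a.1.1 * b.1.1) * P.ιG (a.1.2 * b.1.2)) * k⁻¹ =
        k * (scal a.1.1 * P.ιG a.1.2) * k⁻¹ * (k * (scal b.1.1 * P.ιG b.1.2) * k⁻¹)
      rw [scal_mul, map_mul, mul_assoc (scal a.1.1), ← mul_assoc (scal b.1.1), scal_comm b.1.1 (P.ιG a.1.2)]
      group)

theorem coe_stabHom (h : Rep P γ ε θ k H) (p : stabPair P H) :
    (stabHom h p).1 = k * (scal p.1.1 * P.ιG p.1.2) * k⁻¹ := rfl

/-- The centraliser in the inner-diagonal group. -/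
theorem centralizer_eq (hn : 3 ≤ n) (h : Rep P γ ε θ k H) :
    Cfsg.inndiagPSU n F q ⊓ Subgroup.centralizer {γ} = (diagHom.comp (stabHom h)).range := by
  ext α
  constructor
  · rintro ⟨hα, hc⟩
    obtain ⟨a, rfl⟩ := mem_inndiag_iff.1 hα
    have h1 := h.conj a
    rw [Subgroup.mem_centralizer_singleton_iff.1 hc, mul_inv_cancel_right] at h1
    obtain ⟨-, w, A, hk, e⟩ := h.unique hn h1
    refine ⟨⟨(w, A), ?_⟩, ?_⟩
    · show ((w : F) * P.sig w) • _ = H.map P.ι
      refine smul_right_injective _ h.1.theta_ne ?_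
      simp only [smul_smul]
      rw [mul_comm, e]
    · rw [MonoidHom.comp_apply, diagHom_apply]
      congr 1
      refine Subtype.ext ?_
      rw [coe_stabHom]
      show k * (scal w * P.ιG A) * k⁻¹ = a.1
      rw [← mul_assoc, ← scal_comm, ← hk, mul_inv_cancel_right]
  · rintro ⟨⟨⟨w, A⟩, hp⟩, rfl⟩
    refine ⟨mem_inndiag_iff.2 ⟨_, rfl⟩, ?_⟩
    rw [MonoidHom.comp_apply, diagHom_apply]
    set a := stabHom h ⟨(w, A), hp⟩
    have h1 := h.conj a
    have hak : a.1 * k = scal w * k * P.ιG A := by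
      rw [coe_stabHom, inv_mul_cancel_right, ← mul_assoc, ← scal_comm]
    have h2 : Rep P γ ε θ (a.1 * k) H := by
      rw [hak]
      refine h.change w A h.1 ?_
      rw [mul_comm _ θ, ← smul_smul]
      exact congrArg _ hp.symm
    have h3 := h1.unique_aut hn h2
    exact Subgroup.mem_centralizer_singleton_iff.2 (mul_inv_eq_iff_eq_mul.1 h3)

/-- The centraliser is the similarity group of the form modulo scalars. -/
theorem centralizer_iso (hn : 3 ≤ n) (h : Rep P γ ε θ k H) :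
    Nonempty (↥(Cfsg.inndiagPSU n F q ⊓ Subgroup.centralizer {γ}) ≃* Cfsg.projQuot (formSim H)) := by
  set ρ := (diagHom : Cfsg.GU n F q →* _).comp (stabHom h) with hρ
  let π : stabPair P H →* formSim H := MonoidHom.mk' (fun p => ⟨p.1.2, by
      have hp : ((p.1.1 : F) * P.sig p.1.1) • ((p.1.2 : M₀)ᵀ * H * (p.1.2 : M₀)).map P.ι = H.map P.ι := p.2
      obtain ⟨c, hc⟩ := P.exists_ι_of_fixed (y := ((p.1.1 : F) * P.sig p.1.1)⁻¹) (by
        rw [map_inv₀, map_mul, P.sig_sig, mul_comm])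
      have hN : (p.1.1 : F) * P.sig p.1.1 ≠ 0 := mul_ne_zero p.1.1.ne_zero ((map_ne_zero _).2 p.1.1.ne_zero)
      have hc0 : c ≠ 0 := fun h0 => by
        rw [h0, map_zero] at hc; exact inv_ne_zero hN hc.symm
      refine ⟨Units.mk0 c hc0, Matrix.ext fun i j => P.ι.injective ?_⟩
      have e := congrFun (congrFun hp i) j
      simp only [Matrix.smul_apply, Matrix.map_apply, smul_eq_mul] at e
      rw [Matrix.smul_apply, smul_eq_mul, map_mul, Units.val_mk0, hc, ← e, inv_mul_cancel_left₀ hN]⟩)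
    fun a b => rfl
  let π' : stabPair P H →* Cfsg.projQuot (formSim H) := (QuotientGroup.mk' _).comp π
  have hπ : Function.Surjective π' := (QuotientGroup.mk'_surjective _).comp fun A => by
    obtain ⟨c, hc⟩ := A.2
    obtain ⟨w, hw⟩ := P.exists_norm (c⁻¹ : F₀ˣ) (Units.ne_zero _)
    refine ⟨⟨(w, A.1), ?_⟩, rfl⟩
    show ((w : F) * P.sig w) • ((A.1 : M₀)ᵀ * H * (A.1 : M₀)).map P.ι = H.map P.ι
    rw [hc, hw]
    refine Matrix.ext fun i j => ?_
    simp only [Matrix.smul_apply, Matrix.map_apply, smul_eq_mul, ← map_mul]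
    rw [← mul_assoc, Units.inv_mul, one_mul]
  have hker : π'.ker = ρ.ker := by
    ext p
    rw [MonoidHom.mem_ker, MonoidHom.mem_ker, MonoidHom.comp_apply, QuotientGroup.mk'_apply,
      QuotientGroup.eq_one_iff, Subgroup.mem_subgroupOf, Cfsg.Geo.mem_scalars_iff, hρ, MonoidHom.comp_apply,
      diagHom_apply, semiAut_eq_one_iff P.hF hn, mem_center_GU_iff P.hF (by omega)]
    simp only [true_and]
    show (∃ c : F₀ˣ, (p.1.2 : M₀) = (c : F₀) • 1) ↔ _
    rw [coe_stabHom]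
    set w := p.1.1
    set A := p.1.2
    constructor
    · rintro ⟨c, hc⟩
      refine ⟨(w : F) * P.ι c, fun x => ?_⟩
      have hA : P.ιG A = scal (Units.map (P.ι : F₀ →* F) c) := Units.ext (by
        rw [P.ιG_coe, coe_scal, hc]
        refine Matrix.ext fun i j => ?_
        simp [Matrix.one_apply, apply_ite P.ι])
      rw [hA, ← scal_mul, ← scal_comm, mul_inv_cancel_right, coe_scal, Matrix.smul_mulVec, Matrix.one_mulVec]
      rfl
    · rintro ⟨l, hl⟩
      have hm : ((k * (scal w * P.ιG A) * k⁻¹ : GL (Fin n) F) : M₁) = l • 1 := by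
        rw [eq_diagonal_of_scalar _ hl, Matrix.smul_one_eq_diagonal]
      have hA : (P.ιG A : M₁) = (((w⁻¹ : Fˣ) : F) * l) • 1 := by
        have e : P.ιG A = scal w⁻¹ * (k⁻¹ * (k * (scal w * P.ιG A) * k⁻¹) * k) := by
          rw [show k⁻¹ * (k * (scal w * P.ιG A) * k⁻¹) * k = scal w * P.ιG A by group, ← mul_assoc, ← scal_mul,
            inv_mul_cancel, scal_one, one_mul]
        have e' := congrArg Units.val e
        rw [Units.val_mul, Units.val_mul, Units.val_mul, hm, coe_scal, mul_smul_comm, mul_one, smul_mul_assoc l,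
          ← Units.val_mul, inv_mul_cancel, Units.val_one, smul_mul_assoc, one_mul, smul_smul] at e'
        exact e'
      set o : Fin n := ⟨0, by omega⟩
      have hoff : ∀ i j, i ≠ j → (A : M₀) i j = 0 := fun i j hij => P.ι.injective (by
        have := congrFun (congrFun hA i) j
        simpa [P.ιG_coe, Matrix.one_apply_ne hij] using this)
      have hdiag : ∀ i, P.ι ((A : M₀) i i) = ((w⁻¹ : Fˣ) : F) * l := fun i => by
        have := congrFun (congrFun hA i) i
        simpa [P.ιG_coe] using this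
      have hAo : (A : M₀) o o ≠ 0 := fun h0 => by
        have h1 := hdiag o
        rw [h0, map_zero] at h1
        have : (A : M₀) = 0 := Matrix.ext fun i j => by
          by_cases hij : i = j
          · subst hij; exact P.ι.injective (by rw [hdiag i, ← h1, Matrix.zero_apply, map_zero])
          · exact hoff i j hij
        exact H62.GraphPSL.gl_ne_zero (by omega) A this
      refine ⟨Units.mk0 _ hAo, Matrix.ext fun i j => ?_⟩
      by_cases hij : i = j
      · subst hij; rw [Matrix.smul_apply, Matrix.one_apply_eq, smul_eq_mul, mul_one]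
        exact P.ι.injective ((hdiag i).trans (hdiag o).symm)
      · rw [hoff i j hij, Matrix.smul_apply, Matrix.one_apply_ne hij, smul_zero]
  rw [centralizer_eq hn h]
  exact ⟨((QuotientGroup.quotientKerEquivOfSurjective π' hπ).symm.trans
    ((QuotientGroup.quotientMulEquivOfEq hker).trans (QuotientGroup.quotientKerEquivRange ρ))).symm⟩

/-- The form as an invertible matrix. -/
noncomputable def formGL (h : Rep P γ ε θ k H) : GL (Fin n) F₀ :=
  Matrix.GeneralLinearGroup.mkOfDetNeZero H h.1.det_ne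

theorem formGL_coe (h : Rep P γ ε θ k H) : (formGL h : M₀) = H := rfl

theorem formGL_order (hn : 3 ≤ n) (h : Rep P γ ε θ k H) : orderOf (ofForm (formGL h)) = 2 := by
  rw [H62.GraphPSL.orderOf_ofForm_eq_two_iff hn, formGL_coe, h.1.transp]
  rcases h.1.eps with e | e <;> simp [e]

/-- Transfer of the centraliser to `PSL`. -/
theorem centralizer_transfer (hn : 3 ≤ n) (h : Rep P γ ε θ k H) :
    Nonempty (↥(Cfsg.inndiagPSU n F q ⊓ Subgroup.centralizer {γ}) ≃*
      ↥(Cfsg.inndiagPSL n F₀ ⊓ Subgroup.centralizer {ofForm (formGL h)})) := by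
  obtain ⟨e₁⟩ := centralizer_iso hn h
  obtain ⟨e₂⟩ := H62.GraphPSL.centralizer_equiv (by omega) (formGL h) (LinearEquiv.refl F₀ (Fin n → F₀))
    (formSim H) fun a => by
      rw [show H62.GraphPSL.glConj (LinearEquiv.refl F₀ (Fin n → F₀)) a = a from Units.ext
        (Matrix.ext_of_mulVec_single fun i =>
          H62.GraphPSL.glConj_mulVec (LinearEquiv.refl F₀ (Fin n → F₀)) a (Pi.single i 1))]
      exact Iff.rfl
  exact ⟨e₁.trans e₂.symm⟩

/-- Transfer of conjugacy to `PSL`. -/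
theorem conj_transfer (hn : 3 ≤ n) (h : Rep P γ ε θ k H) (h' : Rep P γ' ε' θ' k' H') :
    Cfsg.IsConjUnder (Cfsg.inndiagPSU n F q) γ γ' ↔
      Cfsg.IsConjUnder (Cfsg.inndiagPSL n F₀) (ofForm (formGL h)) (ofForm (formGL h')) := by
  rw [conj_iff hn h h', H62.GraphPSL.isConjUnder_ofForm_iff (by omega)]
  rfl

/-- Every involutory graph automorphism of `PSL` corresponds to one of `PSU`. -/
theorem exists_rep_of_graph (P : Pair F F₀ q) (hn : 3 ≤ n) {δ : MulAut (Matrix.ProjectiveSpecialLinearGroup (Fin n) F₀)}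
    (hδ : Cfsg.IsGraphAutClassPSL δ) (hδ2 : orderOf δ = 2) :
    ∃ (γ : MulAut (Cfsg.PSU n F q)) (ε : F₀) (θ : F) (k : GL (Fin n) F) (H : M₀) (h : Rep P γ ε θ k H),
      ofForm (formGL h) = δ := by
  obtain ⟨G, rfl, hG⟩ := H62.GraphPSL.exists_ofForm_two hn hδ hδ2
  obtain ⟨ε, θ, hf⟩ : ∃ ε θ, IsForm P ε θ (G : M₀) := by
    rcases hG with hG | hG
    · exact ⟨1, 1, Or.inl rfl, one_ne_zero, by rw [map_one, map_one, one_mul], by rw [one_smul, hG],
        H62.GraphPSL.det_ne_zero G⟩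
    · obtain ⟨θ, hθ0, hθ⟩ := exists_trace_zero_ne_zero P.hF
      refine ⟨-1, θ, Or.inr rfl, hθ0, ?_, by rw [neg_one_smul, hG], H62.GraphPSL.det_ne_zero G⟩
      rw [P.sig_apply, map_neg, map_one, neg_one_mul]
      linear_combination hθ
  obtain ⟨γ, k, h⟩ := exists_rep_of_form P hf
  exact ⟨γ, ε, θ, k, _, h, congrArg ofForm (Units.ext (formGL_coe h))⟩

end Cfsg.Agent.H70.AutPSU
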