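import Cfsg.Agent.H23.AutPSU.FieldAut
import Cfsg.Agent.H67.GUMatrix
import Cfsg.Agent.H99.Aschbacher.Unitary

/-!
A field of order `q ^ 2`, its Frobenius of order two and the embedded subfield of order `q`.
-/

set_option autoImplicit false

namespace Cfsg.Agent.H70.AutPSU

open Matrix Cfsg.Agent.H3 Cfsg.Agent.H23.Descent Cfsg.Agent.H23.AutPSU

/-- The data of the quadratic extension `F / F₀`. -/
structure Pair (F : Type*) [Field F] [Fintype F] (F₀ : Type*) [Field F₀] (q : ℕ) where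
  hF : Fintype.card F = q ^ 2
  /-- the embedding -/
  ι : F₀ →+* F
  mem : ∀ y : F, y ^ q = y ↔ ∃ x, ι x = y

variable {F : Type*} [Field F] [Fintype F] {F₀ : Type*} [Field F₀] {q n : ℕ}

/-- The quadratic extension exists. -/
theorem exists_pair [Fintype F₀] (hF : Fintype.card F = q ^ 2) (hF₀ : Fintype.card F₀ = q) :
    Nonempty (Pair F F₀ q) := by
  classical
  let K : Subfield F := RingHom.eqLocusField (conjQ hF) (RingHom.id F)
  have hK : ∀ x : F, x ∈ K ↔ x ^ q = x := fun x => by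
    show conjQ hF x = RingHom.id F x ↔ _
    rw [conjQ_apply, RingHom.id_apply]
  have hc : Fintype.card F₀ = Fintype.card K := by
    rw [hF₀, ← Nat.card_eq_fintype_card (α := K), ← card_fixed hF]
    exact Nat.card_congr (Equiv.subtypeEquivRight fun x => (hK x).symm)
  let e : F₀ ≃+* K := FiniteField.ringEquivOfCardEq hc
  refine ⟨⟨hF, K.subtype.comp e.toRingHom, fun y => ⟨fun hy => ?_, ?_⟩⟩⟩
  · exact ⟨e.symm ⟨y, (hK y).2 hy⟩, by simp⟩
  · rintro ⟨x, rfl⟩
    exact (hK _).1 (e x).2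

namespace Pair

variable (P : Pair F F₀ q)

/-- The involution of `F` over `F₀`. -/
noncomputable def sig : F ≃+* F :=
  RingEquiv.ofBijective (conjQ P.hF)
    ⟨(conjQ P.hF).injective, Finite.surjective_of_injective (conjQ P.hF).injective⟩

theorem sig_apply (x : F) : P.sig x = x ^ q := conjQ_apply P.hF x

theorem sig_sig (x : F) : P.sig (P.sig x) = x := conjQ_conjQ P.hF x

theorem sig_ι (x : F₀) : P.sig (P.ι x) = P.ι x := by
  rw [P.sig_apply]; exact (P.mem _).2 ⟨x, rfl⟩

theorem exists_ι_of_fixed {y : F} (h : P.sig y = y) : ∃ x, P.ι x = y :=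
  (P.mem y).1 (by rwa [← P.sig_apply])

theorem sig_ne_one : P.sig ≠ 1 := by
  intro h
  have h1 : ∀ x : F, x ^ q = x := fun x => by rw [← P.sig_apply, h]; rfl
  have h2 := card_fixed P.hF
  rw [Nat.card_congr (Equiv.subtypeUnivEquiv h1), Nat.card_eq_fintype_card, P.hF] at h2
  have := two_le_q P.hF
  nlinarith

theorem sig_mul_self : P.sig * P.sig = 1 := RingEquiv.ext P.sig_sig

theorem orderOf_sig : orderOf P.sig = 2 :=
  orderOf_eq_prime (by rw [pow_two]; exact P.sig_mul_self) P.sig_ne_one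

theorem isOfFinOrder_sig : IsOfFinOrder P.sig :=
  orderOf_pos_iff.1 (by rw [P.orderOf_sig]; omega)

theorem eq_sig_of_orderOf_two {τ : F ≃+* F} {p f : ℕ} [Fact p.Prime] (hq : q = p ^ f) (hf : 1 ≤ f)
    (hτ : orderOf τ = 2) : τ = P.sig := by
  obtain ⟨hc, -⟩ := ringAut_cyclic (F := F) (p := p) (N := 2 * f) (by omega)
    (P.hF.trans (card_eq_pow hq))
  classical
  have : Finite (F ≃+* F) := Finite.of_injective _ DFunLike.coe_injective
  have := Fintype.ofFinite (F ≃+* F)
  by_contra hne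
  have hsub : ({1, P.sig, τ} : Finset (F ≃+* F)) ⊆ Finset.univ.filter (fun x => x ^ 2 = 1) := by
    intro x hx
    simp only [Finset.mem_insert, Finset.mem_singleton] at hx
    rw [Finset.mem_filter]
    refine ⟨Finset.mem_univ _, ?_⟩
    rcases hx with rfl | rfl | rfl
    · exact one_pow 2
    · rw [← P.orderOf_sig]; exact pow_orderOf_eq_one _
    · rw [← hτ]; exact pow_orderOf_eq_one _
  have h3 := (Finset.card_le_card hsub).trans (IsCyclic.card_pow_eq_one_le (α := F ≃+* F) two_pos)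
  rw [Finset.card_insert_of_notMem, Finset.card_insert_of_notMem, Finset.card_singleton] at h3
  · omega
  · simp [Ne.symm hne]
  · simp only [Finset.mem_insert, Finset.mem_singleton, not_or]
    exact ⟨fun h => P.sig_ne_one h.symm, fun h => by rw [← h, orderOf_one] at hτ; omega⟩

/-- The norm of a unit. -/
theorem unitNorm_eq (w : Fˣ) :
    ((unitNorm P.sig w : Fˣ) : F) = (w : F) * P.sig w := by
  show ((∏ i ∈ Finset.range (orderOf P.sig), _ : Fˣ) : F) = _
  rw [P.orderOf_sig, Finset.prod_range_succ, Finset.prod_range_one]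
  simp

/-- Every non-zero element of the subfield is a norm. -/
theorem exists_norm (x : F₀) (hx : x ≠ 0) : ∃ w : Fˣ, (w : F) * P.sig w = P.ι x := by
  have hx' : P.ι x ≠ 0 := (map_ne_zero P.ι).2 hx
  obtain ⟨w, hw⟩ := exists_unitNorm_eq P.sig P.isOfFinOrder_sig (Units.mk0 _ hx') (P.sig_ι x)
  exact ⟨w, by rw [← P.unitNorm_eq, hw]; rfl⟩

/-- Hilbert 90. -/
theorem exists_quot {c : F} (hc : c * P.sig c = 1) : ∃ w : Fˣ, c * P.sig w = w := by
  have hc0 : c ≠ 0 := fun h => by simp [h] at hc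
  obtain ⟨w, hw⟩ := exists_div_of_unitNorm_eq_one P.sig P.isOfFinOrder_sig (Units.mk0 c hc0)
    (Units.ext (by rw [P.unitNorm_eq]; exact hc))
  exact ⟨w, congrArg Units.val hw⟩

theorem mem_normOne_iff {c : Fˣ} : c ∈ normOne F q ↔ (c : F) * P.sig c = 1 := by
  rw [H23.AutPSU.mem_normOne, P.sig_apply, pow_succ']

/-- The matrix criterion for `GU`. -/
theorem mem_GU {g : GL (Fin n) F} :
    g ∈ Cfsg.GU n F q ↔ (g : Matrix (Fin n) (Fin n) F)ᵀ * (g : Matrix (Fin n) (Fin n) F).map P.sig = 1 := by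
  rw [H67.mem_GU_iff_matrix P.hF]
  rw [show (g : Matrix (Fin n) (Fin n) F).map P.sig = (g : Matrix (Fin n) (Fin n) F).map (fun x => x ^ q) from
    Matrix.ext fun i j => P.sig_apply _]

/-- The embedding on `GL`. -/
def ιG : GL (Fin n) F₀ →* GL (Fin n) F := Matrix.GeneralLinearGroup.map P.ι

theorem ιG_coe (A : GL (Fin n) F₀) :
    (P.ιG A : Matrix (Fin n) (Fin n) F) = (A : Matrix (Fin n) (Fin n) F₀).map P.ι := rfl

theorem ιG_injective : Function.Injective (P.ιG : GL (Fin n) F₀ → _) := fun A B h =>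
  Units.ext (Matrix.map_injective P.ι.injective (congrArg Units.val h))

theorem glMap_ιG (A : GL (Fin n) F₀) : glMap P.sig (P.ιG A) = P.ιG A :=
  Units.ext (Matrix.ext fun i j => P.sig_ι _)

theorem exists_ιG_of_fixed {g : GL (Fin n) F} (h : glMap P.sig g = g) : ∃ A, P.ιG A = g := by
  have h' : ∀ i j, P.sig ((g : Matrix (Fin n) (Fin n) F) i j) = (g : Matrix (Fin n) (Fin n) F) i j :=
    fun i j => congrArg (fun x : GL (Fin n) F => (x : Matrix (Fin n) (Fin n) F) i j) h
  choose a ha using fun i j => P.exists_ι_of_fixed (h' i j)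
  let M : Matrix (Fin n) (Fin n) F₀ := Matrix.of a
  have hM : M.map P.ι = (g : Matrix (Fin n) (Fin n) F) := Matrix.ext fun i j => ha i j
  have hdet : M.det ≠ 0 := fun h0 => by
    have h1 := congrArg Matrix.det hM
    rw [← RingHom.mapMatrix_apply, ← RingHom.map_det, h0, map_zero] at h1
    exact ((Matrix.isUnit_iff_isUnit_det _).1 g.isUnit).ne_zero h1.symm
  exact ⟨Matrix.GeneralLinearGroup.mkOfDetNeZero M hdet, Units.ext hM⟩

theorem glMap_glMap (g : GL (Fin n) F) : glMap P.sig (glMap P.sig g) = g := by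
  rw [← glMap_mul, P.sig_mul_self, glMap_one]

end Pair

end Cfsg.Agent.H70.AutPSU
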