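import Cfsg.Agent.H70.AutPSU.Pair

/-!
Involutory graph automorphisms of `PSU n` in terms of symmetric and alternating matrices over
the subfield.
-/

set_option autoImplicit false

namespace Cfsg.Agent.H70.AutPSU

open Matrix Cfsg.Agent.H3 Cfsg.Agent.H23.Descent Cfsg.Agent.H23.AutPSU

variable {F : Type*} [Field F] [Fintype F] {F₀ : Type*} [Field F₀] {q n : ℕ}

local notation "M₁" => Matrix (Fin n) (Fin n) F
local notation "M₀" => Matrix (Fin n) (Fin n) F₀

/-- A form of sign `ε` over the subfield, with a scalar making it Hermitian. -/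
structure IsForm (P : Pair F F₀ q) (ε : F₀) (θ : F) (H : M₀) : Prop where
  eps : ε = 1 ∨ ε = -1
  theta_ne : θ ≠ 0
  theta : P.sig θ = P.ι ε * θ
  transp : Hᵀ = ε • H
  det_ne : H.det ≠ 0

/-- `γ` is the graph automorphism attached to the frame `k` with Gram matrix `θ H`. -/
def Rep (P : Pair F F₀ q) (γ : MulAut (Cfsg.PSU n F q)) (ε : F₀) (θ : F) (k : GL (Fin n) F) (H : M₀) : Prop :=
  IsForm P ε θ H ∧ (k : M₁)ᵀ * (k : M₁).map P.sig = θ • H.map P.ι ∧
    ∃ (u : Fˣ) (g : Cfsg.GU n F q), (u : F) * P.sig u = P.ι ε ∧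
      g.1 = scal u * (k * (glMap P.sig k)⁻¹) ∧ γ = semiAut g P.sig

variable (P : Pair F F₀ q)

theorem map_smul_sig (c : F) (A : M₁) : (c • A).map P.sig = P.sig c • A.map P.sig :=
  Matrix.ext fun _ _ => map_mul P.sig _ _

theorem eps_sq {ε : F₀} (h : ε = 1 ∨ ε = -1) : ε * ε = 1 := by
  rcases h with rfl | rfl <;> simp

/-- The matrix of a frame with a given Gram matrix gives a unitary matrix. -/
theorem mem_GU_of_frame {ε : F₀} {θ : F} {H : M₀} (hf : IsForm P ε θ H) {k : GL (Fin n) F}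
    (hk : (k : M₁)ᵀ * (k : M₁).map P.sig = θ • H.map P.ι) {u : Fˣ} (hu : (u : F) * P.sig u = P.ι ε) :
    scal u * (k * (glMap P.sig k)⁻¹) ∈ Cfsg.GU n F q := by
  set e : F := P.ι ε
  set K : M₁ := (k : M₁)
  set C : M₁ := K.map P.sig with hC
  set L : M₁ := (((glMap P.sig k)⁻¹ : GL (Fin n) F) : M₁) with hL
  set D : M₁ := L.map P.sig with hD
  have hCL : C * L = 1 := by
    rw [hC, hL, ← coe_glMap, ← Units.val_mul, mul_inv_cancel, Units.val_one]
  have hKD : K * D = 1 := by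
    have h1 := congrArg (fun A : M₁ => A.map P.sig) hCL
    simp only [Matrix.map_mul, hC, Matrix.map_map] at h1
    rw [Matrix.map_one _ (map_zero _) (map_one _)] at h1
    rw [show K.map (P.sig ∘ P.sig) = K from Matrix.ext fun i j => P.sig_sig _] at h1
    exact h1
  have hT : Cᵀ * K = e • (Kᵀ * C) := by
    have h1 : Cᵀ * K = (Kᵀ * C).map P.sig := by
      rw [Matrix.map_mul, hC, Matrix.map_map,
        show K.map (P.sig ∘ P.sig) = K from Matrix.ext fun i j => P.sig_sig _, Matrix.transpose_map]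
    rw [h1, hk]
    refine Matrix.ext fun i j => ?_
    simp [hf.theta, P.sig_ι, e, mul_assoc]
  have hT' : Kᵀ * C = e • (Cᵀ * K) := by
    rw [hT, smul_smul, show e * e = 1 by rw [← map_mul, eps_sq hf.eps, map_one], one_smul]
  rw [P.mem_GU]
  rw [Units.val_mul, Units.val_mul, coe_scal, smul_mul_assoc, one_mul]
  calc ((u : F) • (K * L))ᵀ * ((u : F) • (K * L)).map P.sig
      = ((u : F) * P.sig u) • (Lᵀ * Kᵀ * (C * D)) := by
        rw [Matrix.transpose_smul, Matrix.transpose_mul, map_smul_sig, Matrix.map_mul, smul_mul_assoc,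
          mul_smul_comm, smul_smul]
    _ = e • (Lᵀ * (Kᵀ * C) * D) := by rw [hu]; simp only [mul_assoc]
    _ = (e * e) • (Lᵀ * Cᵀ * (K * D)) := by
        rw [hT', mul_smul_comm, smul_mul_assoc, smul_smul]; simp only [mul_assoc]
    _ = 1 := by
        rw [hKD, mul_one, ← Matrix.transpose_mul, hCL, Matrix.transpose_one, ← map_mul, eps_sq hf.eps,
          map_one, one_smul]

/-- Existence of a representative for every form. -/
theorem exists_rep_of_form {ε : F₀} {θ : F} {H : M₀} (hf : IsForm P ε θ H) :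
    ∃ (γ : MulAut (Cfsg.PSU n F q)) (k : GL (Fin n) F), Rep P γ ε θ k H := by
  classical
  set G : M₁ := θ • H.map P.ι
  have hu : IsUnit G := by
    rw [Matrix.isUnit_iff_isUnit_det, isUnit_iff_ne_zero, Matrix.det_smul, ← RingHom.mapMatrix_apply,
      ← RingHom.map_det]
    exact mul_ne_zero (pow_ne_zero _ hf.theta_ne) ((map_ne_zero _).2 hf.det_ne)
  have hh : (G.map (conjQ P.hF))ᵀ = G := by
    refine Matrix.ext fun i j => ?_
    have h1 : H j i = ε * H i j := congrFun (congrFun hf.transp i) j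
    show P.sig (θ * P.ι (H j i)) = θ * P.ι (H i j)
    rw [map_mul, P.sig_ι, hf.theta, h1, map_mul]
    have := congrArg P.ι (eps_sq hf.eps)
    rw [map_mul, map_one] at this
    linear_combination θ * P.ι (H i j) * this
  obtain ⟨S, hS⟩ := H99.Asch.exists_congr_one P.hF hu hh
  refine ⟨semiAut ⟨_, mem_GU_of_frame P hf (k := S⁻¹) (u := ?_) ?_ ?_⟩ P.sig, S⁻¹, hf, ?_, _, _, ?_, rfl, rfl⟩
  · have e1 : ((S⁻¹ : GL (Fin n) F) : M₁)ᵀ * (S : M₁)ᵀ = 1 := by
      rw [← Matrix.transpose_mul, ← Units.val_mul, mul_inv_cancel, Units.val_one, Matrix.transpose_one]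
    have e2 : (S : M₁).map P.sig * ((S⁻¹ : GL (Fin n) F) : M₁).map P.sig = 1 := by
      rw [← Matrix.map_mul, ← Units.val_mul, mul_inv_cancel, Units.val_one,
        Matrix.map_one _ (map_zero _) (map_one _)]
    have hS' : (S : M₁)ᵀ * G * (S : M₁).map P.sig = 1 := hS
    calc ((S⁻¹ : GL (Fin n) F) : M₁)ᵀ * ((S⁻¹ : GL (Fin n) F) : M₁).map P.sig
        = ((S⁻¹ : GL (Fin n) F) : M₁)ᵀ * ((S : M₁)ᵀ * G * (S : M₁).map P.sig) *
            ((S⁻¹ : GL (Fin n) F) : M₁).map P.sig := by rw [hS', mul_one]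
      _ = (((S⁻¹ : GL (Fin n) F) : M₁)ᵀ * (S : M₁)ᵀ) * G *
            ((S : M₁).map P.sig * ((S⁻¹ : GL (Fin n) F) : M₁).map P.sig) := by simp only [mul_assoc]
      _ = G := by rw [e1, e2, one_mul, mul_one]
  · exact (P.exists_norm ε (by rcases hf.eps with rfl | rfl <;> simp)).choose
  · exact (P.exists_norm ε (by rcases hf.eps with rfl | rfl <;> simp)).choose_spec
  · have e1 : ((S⁻¹ : GL (Fin n) F) : M₁)ᵀ * (S : M₁)ᵀ = 1 := by
      rw [← Matrix.transpose_mul, ← Units.val_mul, mul_inv_cancel, Units.val_one, Matrix.transpose_one]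
    have e2 : (S : M₁).map P.sig * ((S⁻¹ : GL (Fin n) F) : M₁).map P.sig = 1 := by
      rw [← Matrix.map_mul, ← Units.val_mul, mul_inv_cancel, Units.val_one,
        Matrix.map_one _ (map_zero _) (map_one _)]
    have hS' : (S : M₁)ᵀ * G * (S : M₁).map P.sig = 1 := hS
    calc ((S⁻¹ : GL (Fin n) F) : M₁)ᵀ * ((S⁻¹ : GL (Fin n) F) : M₁).map P.sig
        = ((S⁻¹ : GL (Fin n) F) : M₁)ᵀ * ((S : M₁)ᵀ * G * (S : M₁).map P.sig) *
            ((S⁻¹ : GL (Fin n) F) : M₁).map P.sig := by rw [hS', mul_one]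
      _ = (((S⁻¹ : GL (Fin n) F) : M₁)ᵀ * (S : M₁)ᵀ) * G *
            ((S : M₁).map P.sig * ((S⁻¹ : GL (Fin n) F) : M₁).map P.sig) := by simp only [mul_assoc]
      _ = G := by rw [e1, e2, one_mul, mul_one]
  · exact (P.exists_norm ε (by rcases hf.eps with rfl | rfl <;> simp)).choose_spec

theorem semiAut_eq_iff (hn : 3 ≤ n) {g g' : Cfsg.GU n F q} :
    semiAut g P.sig = semiAut g' P.sig ↔ ∃ c : Fˣ, (c : F) * P.sig c = 1 ∧ g'.1 = scal c * g.1 := by
  constructor
  · intro h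
    have h1 : semiAut (g' * g⁻¹) 1 = (1 : MulAut (Cfsg.PSU n F q)) := by
      have e : semiAut (g' * g⁻¹) 1 * semiAut g P.sig = semiAut g' P.sig := by
        rw [semiAut_mul, guMap_one, one_mul, inv_mul_cancel_right]
      rw [h] at e
      exact mul_eq_right.1 e
    obtain ⟨l, hl⟩ := (mem_center_GU_iff P.hF (by omega) _).1 ((semiAut_eq_one_iff P.hF hn).1 h1).2
    have hl1 := scalar_norm_one P.hF (by omega) _ hl
    have hl0 : l ≠ 0 := fun h => by simp [h] at hl1
    refine ⟨Units.mk0 l hl0, by rw [P.sig_apply, ← pow_succ']; exact hl1, ?_⟩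
    have h2 : (g' * g⁻¹).1 = scal (Units.mk0 l hl0) := Units.ext (by
      rw [eq_diagonal_of_scalar _ hl, coe_scal, Matrix.smul_one_eq_diagonal, Units.val_mk0])
    rw [← h2]
    simp
  · rintro ⟨c, hc, h⟩
    have : g' = (guScal ⟨c, P.mem_normOne_iff.2 hc⟩ : Cfsg.GU n F q) * g := Subtype.ext (by
      rw [h, Subgroup.coe_mul, coe_guScal])
    rw [this, semiAut_guScal_mul P.hF hn]

/-- Graph automorphisms of order two all arise from forms. -/
theorem exists_rep [Fintype F₀] {p f : ℕ} [Fact p.Prime] (hq : q = p ^ f) (hf : 1 ≤ f) (hn : 3 ≤ n)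
    {γ : MulAut (Cfsg.PSU n F q)} (hγ : Cfsg.IsGraphAutClassPSU γ) (hγ2 : orderOf γ = 2) :
    ∃ ε θ k H, Rep P γ ε θ k H := by
  classical
  obtain ⟨-, δ, φ, τ, hev, hδ, hφ, rfl⟩ := hγ
  obtain ⟨g, rfl⟩ := isInnerDiagonal_iff.1 hδ
  obtain rfl := isFieldAut_iff.1 hφ
  rw [semiAut_mul, guMap_one, mul_one, one_mul] at hγ2 ⊢
  obtain ⟨N, hN, hpow⟩ := exists_pow_semiAut g τ 2
  rw [show (semiAut g τ : MulAut (Cfsg.PSU n F q)) ^ 2 = 1 by rw [← hγ2]; exact pow_orderOf_eq_one _] at hpow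
  obtain ⟨hτ2, hNc⟩ := (semiAut_eq_one_iff P.hF hn).1 hpow.symm
  have hτ : orderOf τ = 2 := by
    rcases (Nat.dvd_prime Nat.prime_two).1 (orderOf_dvd_of_pow_eq_one hτ2) with h | h
    · rw [h] at hev; exact absurd hev (by decide)
    · exact h
  obtain rfl := P.eq_sig_of_orderOf_two hq hf hτ
  obtain ⟨l, hl⟩ := (mem_center_GU_iff P.hF (by omega) N).1 hNc
  set B : M₁ := (g.1 : M₁)
  have hNv : (N.1 : M₁) = B * B.map P.sig := by
    rw [hN]
    show ((g.1 * glMap P.sig (g.1 * glMap P.sig 1) : GL (Fin n) F) : M₁) = _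
    rw [map_one, mul_one, Units.val_mul, coe_glMap]
  have hlB : B * B.map P.sig = l • 1 := by
    rw [← hNv, eq_diagonal_of_scalar _ hl, Matrix.smul_one_eq_diagonal]
  have hU : Bᵀ * B.map P.sig = 1 := P.mem_GU.1 g.2
  have hBT : B = l • Bᵀ := by
    have h1 : B.map P.sig * Bᵀ = 1 := mul_eq_one_comm.1 hU
    calc B = B * (B.map P.sig * Bᵀ) := by rw [h1, mul_one]
      _ = l • Bᵀ := by rw [← mul_assoc, hlB, smul_mul_assoc, one_mul]
  have hB0 : B ≠ 0 := fun h0 => by
    rw [h0, Matrix.transpose_zero, zero_mul] at hU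
    exact zero_ne_one (congrFun (congrFun hU ⟨0, by omega⟩) ⟨0, by omega⟩)
  have hl2 : l * l = 1 := by
    have h1 : B = (l * l) • B := by
      conv_lhs => rw [hBT, hBT, Matrix.transpose_smul, Matrix.transpose_transpose, smul_smul]
    obtain ⟨i, j, hij⟩ : ∃ i j, B i j ≠ 0 := by
      by_contra hne
      push Not at hne
      exact hB0 (Matrix.ext hne)
    have := congrFun (congrFun h1 i) j
    rw [Matrix.smul_apply, smul_eq_mul] at this
    exact mul_right_cancel₀ hij (this.symm.trans (one_mul _).symm)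
  set ε : F₀ := if l = 1 then 1 else -1
  have hε : ε = 1 ∨ ε = -1 := by unfold ε; split_ifs <;> simp
  have hιε : P.ι ε = l := by
    unfold ε
    split_ifs with h
    · rw [h, map_one]
    · rcases mul_self_eq_one_iff.1 hl2 with h' | h'
      · exact absurd h' h
      · rw [h', map_neg, map_one]
  have hε0 : ε ≠ 0 := by rcases hε with h | h <;> simp [h]
  obtain ⟨u, hu⟩ := P.exists_norm ε hε0
  -- renormalise and descend
  set g₁ : GL (Fin n) F := scal u⁻¹ * g.1 with hg₁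
  have hg1 : tw P.sig g₁ (orderOf P.sig) = 1 := by
    rw [P.orderOf_sig]
    show g₁ * glMap P.sig (g₁ * glMap P.sig 1) = 1
    rw [map_one, mul_one]
    refine Units.ext ?_
    rw [Units.val_mul, coe_glMap, hg₁, Units.val_mul, coe_scal, smul_mul_assoc, one_mul,
      map_smul_sig, smul_mul_assoc, mul_smul_comm, smul_smul, hlB, smul_smul,
      Units.val_one]
    rw [show ((u⁻¹ : Fˣ) : F) * P.sig ((u⁻¹ : Fˣ) : F) * l = 1 by
      rw [Units.val_inv_eq_inv_val, map_inv₀, ← mul_inv, hu, hιε, inv_mul_cancel₀]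
      intro h; rw [h, zero_mul] at hl2; exact zero_ne_one hl2, one_smul]
  obtain ⟨k, hk⟩ := exists_descent P.sig P.isOfFinOrder_sig g₁ hg1
  have hkg : g.1 = scal u * (k * (glMap P.sig k)⁻¹) := by
    rw [show k * (glMap P.sig k)⁻¹ = g₁ from mul_inv_eq_iff_eq_mul.2 hk.symm, hg₁, ← mul_assoc, ← scal_mul,
      mul_inv_cancel, scal_one, one_mul]
  -- the Gram matrix
  set K : M₁ := (k : M₁)
  set X : M₁ := Kᵀ * K.map P.sig with hX
  have hK' : B * K.map P.sig = (u : F) • K := by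
    show (g.1 : M₁) * _ = _
    rw [hkg, ← coe_glMap, Units.val_mul, Units.val_mul, coe_scal, smul_mul_assoc, one_mul, smul_mul_assoc,
      mul_assoc, ← Units.val_mul, inv_mul_cancel, Units.val_one, mul_one]
  have hXs : X.map P.sig = (K.map P.sig)ᵀ * K := by
    rw [hX, Matrix.map_mul, Matrix.map_map, Matrix.transpose_map]
    congr 1
    exact Matrix.ext fun i j => P.sig_sig _
  have hXX : X.map P.sig = l • X := by
    have h1 : (K.map P.sig)ᵀ * B * K.map P.sig = (u : F) • X.map P.sig := by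
      rw [mul_assoc, hK', mul_smul_comm, hXs]
    have h2 : (K.map P.sig)ᵀ * B * K.map P.sig = (l * (u : F)) • X := by
      conv_lhs => rw [hBT]
      rw [mul_smul_comm, smul_mul_assoc, ← Matrix.transpose_mul, hK', Matrix.transpose_smul, smul_mul_assoc,
        smul_smul, hX]
    have h3 := congrArg (fun A : M₁ => ((u⁻¹ : Fˣ) : F) • A) (h1.symm.trans h2)
    simp only [smul_smul, Units.inv_mul, one_smul] at h3
    rw [h3]
    congr 1
    rw [mul_left_comm, Units.inv_mul, mul_one]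
  obtain ⟨θ, hθ0, hθ⟩ : ∃ θ : F, θ ≠ 0 ∧ P.sig θ = P.ι ε * θ := by
    rcases hε with h | h
    · exact ⟨1, one_ne_zero, by rw [h, map_one, map_one, mul_one]⟩
    · obtain ⟨θ, hθ0, hθ⟩ := exists_trace_zero_ne_zero P.hF
      refine ⟨θ, hθ0, ?_⟩
      rw [h, map_neg, map_one, P.sig_apply, neg_one_mul]
      linear_combination hθ
  have hfix : ∀ i j, ∃ x, P.ι x = θ⁻¹ * X i j := fun i j => P.exists_ι_of_fixed (by
    rw [map_mul, map_inv₀, hθ, show P.sig (X i j) = l * X i j from congrFun (congrFun hXX i) j, hιε]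
    have hl0 : l ≠ 0 := fun h => by rw [h, zero_mul] at hl2; exact zero_ne_one hl2
    field_simp)
  choose H hH using hfix
  have hXH : X = θ • (Matrix.of H).map P.ι := Matrix.ext fun i j => by
    rw [Matrix.smul_apply, Matrix.map_apply, Matrix.of_apply, hH, smul_eq_mul, ← mul_assoc,
      mul_inv_cancel₀ hθ0, one_mul]
  refine ⟨ε, θ, k, Matrix.of H, ⟨hε, hθ0, hθ, ?_, ?_⟩, hXH, u, g, hu, hkg, rfl⟩
  · refine Matrix.ext fun i j => P.ι.injective ?_
    rw [Matrix.transpose_apply, Matrix.smul_apply, smul_eq_mul, map_mul, Matrix.of_apply, Matrix.of_apply,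
      hH, hH, hιε]
    have h1 : X j i = l * X i j := by
      have h2 : Xᵀ = X.map P.sig := by
        rw [hX, hXs, Matrix.transpose_mul, Matrix.transpose_transpose]
      rw [hXX] at h2
      exact congrFun (congrFun h2 i) j
    rw [h1]; ring
  · intro h0
    have h1 := congrArg Matrix.det hXH
    rw [Matrix.det_smul, ← RingHom.mapMatrix_apply, ← RingHom.map_det, h0, map_zero, mul_zero, hX,
      Matrix.det_mul, Matrix.det_transpose, ← coe_glMap] at h1
    rcases mul_eq_zero.1 h1 with h | h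
    · exact ((Matrix.isUnit_iff_isUnit_det _).1 k.isUnit).ne_zero h
    · exact ((Matrix.isUnit_iff_isUnit_det _).1 (glMap P.sig k).isUnit).ne_zero h

variable {P}

theorem Rep.isGraph (hn : 3 ≤ n) {γ : MulAut (Cfsg.PSU n F q)} {ε : F₀} {θ : F} {k : GL (Fin n) F} {H : M₀}
    (h : Rep P γ ε θ k H) : Cfsg.IsGraphAutClassPSU γ ∧ orderOf γ = 2 := by
  obtain ⟨hf, hk, u, g, hu, hg, rfl⟩ := h
  refine ⟨⟨hn, semiAut g 1, semiAut 1 P.sig, P.sig, by rw [P.orderOf_sig]; exact even_two,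
    isInnerDiagonal_iff.2 ⟨g, rfl⟩, isFieldAut_iff.2 rfl, by rw [semiAut_mul, guMap_one, mul_one, one_mul]⟩, ?_⟩
  refine orderOf_eq_prime ?_ fun h1 => P.sig_ne_one ((semiAut_eq_one_iff P.hF hn).1 h1).1
  have hue : (u : F) * P.sig u * ((u : F) * P.sig u) = 1 := by
    rw [hu, ← map_mul, eps_sq hf.eps, map_one]
  obtain ⟨e, he⟩ : ∃ e : normOne F q, ((e : Fˣ) : F) = (u : F) * P.sig u :=
    ⟨⟨Units.mk0 _ (mul_ne_zero u.ne_zero ((map_ne_zero _).2 u.ne_zero)), P.mem_normOne_iff.2 (by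
      show (u : F) * P.sig u * P.sig ((u : F) * P.sig u) = 1
      rw [map_mul P.sig (u : F), P.sig_sig, mul_comm (P.sig (u : F)) (u : F)]
      exact hue)⟩, rfl⟩
  rw [pow_two, semiAut_mul, P.sig_mul_self, semiAut_eq_one_iff P.hF hn]
  refine ⟨rfl, ?_⟩
  rw [show g * guMap P.sig g = (guScal e : Cfsg.GU n F q) from Subtype.ext (by
    rw [Subgroup.coe_mul, coe_guMap, coe_guScal, hg, map_mul, glMap_scal, map_mul, map_inv, P.glMap_glMap,
      mul_assoc, ← mul_assoc (k * _), ← scal_comm, mul_assoc _ (k * _),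
      show k * (glMap P.sig k)⁻¹ * (glMap P.sig k * k⁻¹) = 1 by group, mul_one, ← scal_mul]
    exact congrArg scal (Units.ext he.symm))]
  exact mem_center_GU_of_scalar _ (guScal_mulVec e)

end Cfsg.Agent.H70.AutPSU
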